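import Mathlib
import Cfsg.Agent.H50.E72Defs

/-! The weights of the elementary abelian group of order 27 on the module of dimension 56. -/

set_option autoImplicit false

namespace Cfsg.Agent.H15.E72D27

open Module Multiplicative Cfsg.Agent.H50.E72
open scoped Matrix

def n27 (c : E3) : E3 := ![c 2 - c 0, c 0, c 1]

theorem orb : ∀ e : E3, e ≠ 0 →
    ∃ k < 13, m27^[k] ![1, 0, 0] = e ∨ -(m27^[k] ![1, 0, 0]) = e := by decide +kernel

theorem orb1 : ∀ e : E3, e ≠ 0 →
    ∃ k < 13, n27^[k] ![1, 0, 0] = e ∨ -(n27^[k] ![1, 0, 0]) = e := by decide +kernel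

theorem orb2 : ∀ e : E3, e ≠ 0 →
    ∃ k < 13, n27^[k] e = ![1, 0, 0] ∨ -(n27^[k] e) = ![1, 0, 0] := by decide +kernel

theorem surj : Function.Surjective m27 := by
  unfold Function.Surjective; decide +kernel

theorem dual : ∀ c e : E3, n27 c ⬝ᵥ m27 e = c ⬝ᵥ e := by decide +kernel

theorem sum_const (g : E3 → ℕ) (f : ℕ) (h : ∀ e, e ≠ 0 → g e = f) : ∑ e, g e = g 0 + 26 * f := by
  rw [← Finset.add_sum_erase _ _ (Finset.mem_univ (0 : E3)),
    Finset.sum_congr rfl (fun e he => h e (Finset.ne_of_mem_erase he)), Finset.sum_const,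
    Finset.card_erase_of_mem (Finset.mem_univ _), Finset.card_univ]
  simp

theorem hT (W : Submodule K (Fin 56 → K)) :
    finrank K (⊤ ⊓ W : Submodule K (Fin 56 → K)) = finrank K W := by rw [top_inf_eq]

theorem h56 : finrank K (⊤ : Submodule K (Fin 56 → K)) = 56 := by simp

theorem htop (π : G0 →* M56 (ZMod 2)) (g : G0) : Inv π g (⊤ : Submodule K (Fin 56 → K)) :=
  fun _ _ => Submodule.mem_top

theorem part1 (c3 : C3Stmt) (cnt : CntStmt) (kit : KitStmt) (π : G0 →* M56 (ZMod 2))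
    (hπ : Good π) (x : Multiplicative E3 →* G0) (y : G0) (hx : Function.Injective x)
    (hyx : ∀ e, y * x (ofAdd e) * y⁻¹ = x (ofAdd (m27 e))) :
    finrank K (Fix π (Set.range x)) = 4 := by
  obtain ⟨k1, k2, k3, -⟩ := kit (Fin 56) π
  have hit : ∀ k e, fx π (x (ofAdd (m27^[k] e))) = fx π (x (ofAdd e)) := by
    intro k
    induction k with
    | zero => intro e; rfl
    | succ k ih =>
      intro e
      rw [Function.iterate_succ_apply', ← hyx, ← ih e]
      exact (k1 _ _ 1 (isConj_iff.2 ⟨y, rfl⟩)).symm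
  have hc : ∀ e : E3, e ≠ 0 → fx π (x (ofAdd e)) = fx π (x (ofAdd ![1, 0, 0])) := by
    intro e he
    obtain ⟨k, -, h | h⟩ := orb e he
    · rw [← h, hit]
    · rw [← h, ofAdd_neg, map_inv, k2, hit]
  have hsum := cnt (Fin 56) π 2 x ⊤ (fun e => htop π _)
  rw [h56, hT, Finset.sum_congr rfl (fun e _ => hT _)] at hsum
  have hs2 : ∑ e : Multiplicative E3, finrank K (eig π (x e) 1) =
      56 + 26 * fx π (x (ofAdd ![1, 0, 0])) := by
    rw [← Equiv.sum_comp (Multiplicative.ofAdd (α := E3))]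
    have := sum_const (fun e => fx π (x (ofAdd e))) _ hc
    rw [ofAdd_zero, map_one, k3, Fintype.card_fin] at this
    exact this
  have hne : x (ofAdd ![1, 0, 0]) ≠ 1 := by
    intro h
    rw [← map_one x] at h
    have := hx h
    revert this; decide +kernel
  have hcube : x (ofAdd ![1, 0, 0]) ^ 3 = 1 := by
    have : (ofAdd ![1, 0, 0] : Multiplicative E3) ^ 3 = 1 := by decide +kernel
    rw [← map_pow, this, map_one]
  have hl := c3 π hπ _ hcube hne
  have h2 := hs2.symm.trans hsum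
  simp only [List.mem_cons, Prod.mk.injEq, List.not_mem_nil, or_false] at hl
  omega

theorem negw (frob : FrobStmt) (π : G0 →* M56 (ZMod 2)) (x : Multiplicative E3 →* G0) (ω : Kˣ)
    (hω : IsPrimitiveRoot ω 3) (c : E3) :
    finrank K (wsp π ω x (-c)) = finrank K (wsp π ω x c) := by
  have h := frob (Fin 56) π E3 (fun e => x (ofAdd e)) (fun e => ((ω ^ (c ⬝ᵥ e).val : Kˣ) : K))
  have key : ∀ a : ZMod 3, ((ω ^ a.val : Kˣ) : K) ^ 2 = ((ω ^ (-a).val : Kˣ) : K) := by
    intro a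
    have h1 : a.val * 2 % 3 = (-a).val := by revert a; decide
    rw [← Units.val_pow_eq_pow_val, ← pow_mul, ← h1, ← pow_mod_orderOf, ← hω.eq_orderOf]
  have e1 : (⨅ e : E3, eig π (x (ofAdd e)) (((ω ^ (c ⬝ᵥ e).val : Kˣ) : K) ^ 2)) =
      wsp π ω x (-c) := by
    unfold wsp
    refine iInf_congr fun e => ?_
    rw [key, neg_dotProduct]
  rw [← e1]
  exact h.symm

theorem part2 (wt : WtStmt) (frob : FrobStmt) (kit : KitStmt) (π : G0 →* M56 (ZMod 2))
    (x : Multiplicative E3 →* G0) (y : G0) (ω : Kˣ) (hω : IsPrimitiveRoot ω 3)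
    (hyx : ∀ e, y * x (ofAdd e) * y⁻¹ = x (ofAdd (m27 e)))
    (hm : finrank K (Fix π (Set.range x)) = 4) (c : E3) (hc : c ≠ 0) :
    finrank K (wsp π ω x c) = 2 := by
  obtain ⟨-, -, -, -, -, k6⟩ := kit (Fin 56) π
  have hn : ∀ k c, finrank K (wsp π ω x c) ≤ finrank K (wsp π ω x (n27^[k] c)) := by
    intro k
    induction k with
    | zero => intro c; exact le_rfl
    | succ k ih =>
      intro c
      rw [Function.iterate_succ_apply']
      refine (ih c).trans ?_
      have := k6 3 3 ω x ⊤ y m27 _ (n27 (n27^[k] c)) (htop π _) surj hyx (dual _)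
      rwa [hT, hT] at this
  have hneg := negw frob π x ω hω
  have hcst : ∀ c : E3, c ≠ 0 →
      finrank K (wsp π ω x c) = finrank K (wsp π ω x ![1, 0, 0]) := by
    intro c hc
    apply le_antisymm
    · obtain ⟨k, -, h | h⟩ := orb2 c hc
      · rw [← h]; exact hn k c
      · rw [← h, hneg]; exact hn k c
    · obtain ⟨k, -, h | h⟩ := orb1 c hc
      · rw [← h]; exact hn k _
      · rw [← h, hneg]; exact hn k _
  have hw := wt (Fin 56) π 3 3 ω x ⊤ hω (fun e => htop π _) ∅ (fun _ => 0)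
  have e1 : (⨅ e ∈ (∅ : Finset E3), eig π (x (ofAdd e)) ((ω ^ (0 : ZMod 3).val : Kˣ) : K)) = ⊤ := by
    simp
  rw [hT, e1, h56, Finset.filter_true_of_mem (by simp),
    Finset.sum_congr rfl (fun e _ => hT _)] at hw
  have h0 : wsp π ω x 0 = Fix π (Set.range x) := by
    ext v
    simp only [wsp, Submodule.mem_iInf, mem_eig, mem_Fix, zero_dotProduct, ZMod.val_zero,
      pow_zero, Units.val_one, one_smul, Set.forall_mem_range]
    exact ⟨fun h e => h (toAdd e), fun h e => h _⟩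
  rw [sum_const (fun c => finrank K (wsp π ω x c)) _ hcst, h0, hm] at hw
  rw [hcst c hc]
  omega

theorem part3 (p13 : P13Stmt) (π : G0 →* M56 (ZMod 2))
    (x : Multiplicative E3 →* G0) (y : G0) (hy : y ^ 13 = 1)
    (hyx : ∀ e, y * x (ofAdd e) * y⁻¹ = x (ofAdd (m27 e)))
    (hm : finrank K (Fix π (Set.range x)) = 4) :
    ∀ v ∈ Fix π (Set.range x), act π y v = v := by
  have hinv : Inv π y (Fix π (Set.range x)) := by
    intro v hv
    rw [mem_Fix] at hv ⊢
    rintro _ ⟨e, rfl⟩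
    obtain ⟨e', he'⟩ := surj (toAdd e)
    have h1 : x e * y = y * x (ofAdd e') := by
      rw [← ofAdd_toAdd e, ← he', ← hyx, inv_mul_cancel_right]
    rw [← Module.End.mul_apply, ← map_mul, h1, map_mul, Module.End.mul_apply,
      hv _ ⟨_, rfl⟩]
  obtain ⟨m, hmm⟩ := p13 (Fin 56) π _ y hy hinv
  have hle : Fix π (Set.range x) ⊓ eig π y 1 ≤ Fix π (Set.range x) := inf_le_left
  have heq : Fix π (Set.range x) ⊓ eig π y 1 = Fix π (Set.range x) := by
    apply Submodule.eq_of_le_of_finrank_eq hle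
    omega
  intro v hv
  rw [← heq] at hv
  have := (mem_eig π).1 hv.2
  rwa [one_smul] at this

theorem d27 (c3 : C3Stmt) (cnt : CntStmt) (wt : WtStmt) (frob : FrobStmt) (kit : KitStmt)
    (p13 : P13Stmt) : D27Stmt := fun π hπ x y ω hω hx hy hyx =>
  have hm := part1 c3 cnt kit π hπ x y hx hyx
  ⟨hm, part2 wt frob kit π x y ω hω hyx hm, part3 p13 π x y hy hyx hm⟩

end Cfsg.Agent.H15.E72D27
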