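import Mathlib
import Cfsg.Agent.H6.E82Defs

/-! The sum of the elements of `SL₂(64)` with square one. -/

set_option autoImplicit false

namespace Cfsg.Agent.H15.E82Edec

open Module H82 H50.SL2S Finset Cfsg.Agent.H6.E82
open scoped Matrix MatrixGroups

theorem two0 : (2 : F) = 0 := CharTwo.two_eq_zero

noncomputable def cj (t s : F) : SL := uu t * ww F * uu s * (uu t * ww F)⁻¹

theorem cj00 (t s : F) : cj t s 0 0 = 1 + t * s := by
  simp only [cj, ent, ent2]; linear_combination (-t * s) * two0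
theorem cj01 (t s : F) : cj t s 0 1 = t * t * s := by simp only [cj, ent, ent2]; ring
theorem cj10 (t s : F) : cj t s 1 0 = s := by
  simp only [cj, ent, ent2]; linear_combination (-s) * two0
theorem cj11 (t s : F) : cj t s 1 1 = 1 + t * s := by simp only [cj, ent, ent2]; ring

theorem uu_sq (t : F) : uu t * uu t = 1 := by rw [← uu_add, CharTwo.add_self_eq_zero, uu_zero]

theorem cj_sq (t s : F) : cj t s * cj t s = 1 := by
  rw [cj, conj_mul, uu_sq, mul_one, mul_inv_cancel]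

theorem sq_ent {g : SL} (h : g * g = 1) :
    g 0 0 * g 0 0 + g 0 1 * g 1 0 = 1 ∧ g 1 0 * g 0 0 + g 1 1 * g 1 0 = 0 ∧
      g 1 0 * g 0 1 + g 1 1 * g 1 1 = 1 := by
  refine ⟨?_, ?_, ?_⟩ <;> rw [← SL2_mul_apply, h] <;> rfl

theorem one_of_sq {a : F} (h : a * a = 1) : a = 1 := by
  have : (a - 1) ^ 2 = 0 := by linear_combination h + (1 - a) * two0
  exact sub_eq_zero.1 (pow_eq_zero_iff two_ne_zero |>.1 this)

variable {W : Type} [AddCommGroup W] [Module K W] (ρ : SL →* Module.End K W)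

theorem part1 : Eop ρ = NU ρ + ∑ t : F, ρ (uu t * ww F) * NU ρ * ρ (uu t * ww F)⁻¹ := by
  have h1 : ∑ g ∈ (univ.filter fun g : SL => g * g = 1).filter (fun g => g 1 0 = 0), ρ g = NU ρ := by
    refine (sum_nbij' (fun t : F => uu t) (fun g => g 0 1) (fun t _ => ?_) (fun _ _ => mem_univ _)
      (fun _ _ => rfl) (fun g hg => ?_) fun _ _ => rfl).symm
    · exact mem_filter.2 ⟨mem_filter.2 ⟨mem_univ _, uu_sq t⟩, rfl⟩
    · obtain ⟨hg, h0⟩ := mem_filter.1 hg
      obtain ⟨e1, -, e3⟩ := sq_ent (mem_filter.1 hg).2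
      rw [h0, mul_zero, add_zero] at e1
      rw [h0, zero_mul, zero_add] at e3
      apply SL2_ext <;> simp only [ent, h0, one_of_sq e1, one_of_sq e3]
  have h2 : ∑ g ∈ (univ.filter fun g : SL => g * g = 1).filter (fun g => ¬ g 1 0 = 0), ρ g =
      ∑ x ∈ (univ : Finset F) ×ˢ (univ.erase (0 : F)), ρ (cj x.1 x.2) := by
    refine (sum_nbij' (fun x : F × F => cj x.1 x.2) (fun g => ((g 0 0 + 1) / g 1 0, g 1 0))
      (fun x hx => ?_) (fun g hg => ?_) (fun x hx => ?_) (fun g hg => ?_) fun _ _ => rfl).symm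
    · exact mem_filter.2 ⟨mem_filter.2 ⟨mem_univ _, cj_sq _ _⟩, by
        rw [cj10]; exact ne_of_mem_erase (mem_product.1 hx).2⟩
    · exact mem_product.2 ⟨mem_univ _, mem_erase.2 ⟨(mem_filter.1 hg).2, mem_univ _⟩⟩
    · have h0 : x.2 ≠ 0 := ne_of_mem_erase (mem_product.1 hx).2
      rw [cj10, cj00]
      refine Prod.ext ?_ rfl
      rw [div_eq_iff h0]
      linear_combination two0
    · obtain ⟨hg, h0⟩ := mem_filter.1 hg
      obtain ⟨e1, e2, -⟩ := sq_ent (mem_filter.1 hg).2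
      have e4 : (g 0 0 + 1) / g 1 0 * g 1 0 = g 0 0 + 1 := div_mul_cancel₀ _ h0
      have e5 : g 0 0 + g 1 1 = 0 := mul_left_cancel₀ h0 (by linear_combination e2)
      apply SL2_ext
      · rw [cj00, e4]; linear_combination two0
      · rw [cj01, mul_assoc, e4]
        refine mul_right_cancel₀ h0 ?_
        rw [mul_right_comm, e4]
        linear_combination -e1 + (g 0 0 * g 0 0 + g 0 0) * two0
      · rw [cj10]
      · rw [cj11, e4]; linear_combination e5 + (1 - g 1 1) * two0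
  have h3 : ∀ t : F, ρ (uu t * ww F) * NU ρ * ρ (uu t * ww F)⁻¹ =
      1 + ∑ s ∈ univ.erase (0 : F), ρ (cj t s) := fun t => by
    rw [NU, mul_sum, sum_mul, ← add_sum_erase _ _ (mem_univ (0 : F)), uu_zero, ← map_mul,
      ← map_mul, mul_one, mul_inv_cancel, map_one]
    exact congrArg _ (sum_congr rfl fun s _ => by rw [← map_mul, ← map_mul, cj])
  have h4 : (64 : ℕ) • (1 : Module.End K W) = 0 := by
    rw [← Nat.cast_smul_eq_nsmul K, (CharP.cast_eq_zero_iff K 2 64).2 (by norm_num), zero_smul]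
  rw [Eop, ← sum_filter_add_sum_filter_not _ (fun g : SL => g 1 0 = 0), h1, h2,
    sum_congr rfl fun t _ => h3 t, sum_add_distrib, sum_const, card_univ, card_F, h4, zero_add,
    sum_product]

theorem part2 (g : SL) : Commute (ρ g) (Eop ρ) := by
  show _ * _ = _ * _
  rw [Eop, mul_sum, sum_mul]
  refine sum_nbij' (fun x => g * x * g⁻¹) (fun x => g⁻¹ * x * g⁻¹⁻¹) (fun x hx => ?_)
    (fun x hx => ?_) (fun x _ => by group) (fun x _ => by group) fun x _ => ?_
  · exact mem_filter.2 ⟨mem_univ _, by rw [conj_mul, (mem_filter.1 hx).2]; group⟩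
  · exact mem_filter.2 ⟨mem_univ _, by rw [conj_mul, (mem_filter.1 hx).2]; group⟩
  · rw [← map_mul, ← map_mul, inv_mul_cancel_right]

theorem part3 (B : LinearMap.BilinForm K W) (hB : Form ρ B) (a b : W) :
    B (Eop ρ a) b = B a (Eop ρ b) := by
  rw [Eop, LinearMap.sum_apply, LinearMap.sum_apply, map_sum, map_sum, LinearMap.sum_apply]
  refine sum_congr rfl fun g hg => ?_
  rw [← hB.2.2 g, ← Module.End.mul_apply, ← map_mul, (mem_filter.1 hg).2, map_one,
    Module.End.one_apply]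

theorem NU_mem {P : Submodule K W} (hP : Inv ρ P) {v : W} (hv : v ∈ P) :
    NU ρ v ∈ P ⊓ Fx ρ (UU F) := by
  refine ⟨?_, fun g hg => ?_⟩
  · rw [NU, LinearMap.sum_apply]
    exact P.sum_mem fun t _ => hP _ v hv
  · obtain ⟨s, rfl⟩ := mem_UU.1 hg
    rw [← Module.End.mul_apply, NU, mul_sum]
    congr 1
    simp only [← map_mul, ← uu_add]
    exact Equiv.sum_comp (Equiv.addLeft s) fun t => ρ (uu t)

theorem edec : EdecStmt := fun W _ _ _ ρ => by
  refine ⟨part1 ρ, part2 ρ, part3 ρ, fun P hP v hv => ?_⟩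
  rw [part1, LinearMap.add_apply, LinearMap.sum_apply]
  refine add_mem (Submodule.subset_span ⟨1, _, NU_mem ρ hP hv, by rw [map_one]; rfl⟩)
    (Submodule.sum_mem _ fun t _ => Submodule.subset_span ⟨_, _, NU_mem ρ hP (hP _ v hv), rfl⟩)

end Cfsg.Agent.H15.E82Edec
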