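import Mathlib
import Cfsg.Agent.H6.E82Defs

/-! The monomial basis of the simple modules of `SL₂(64)`. -/

set_option autoImplicit false

namespace Cfsg.Agent.H15.E82Mono

open Module H82 H50.SL2S Finset Cfsg.Agent.H6.E82 Polynomial
open scoped Matrix MatrixGroups

theorem par0 : ∀ r < 64, ∀ j ≤ r,
    (¬ 2 ∣ r.factorial / (j.factorial * (r - j).factorial) ↔ j &&& r = j) := by decide +kernel

theorem par {r j : ℕ} (hr : r < 64) (hj : j ≤ r) : ¬ 2 ∣ r.choose j ↔ j ∈ JS r := by
  rw [Nat.choose_eq_factorial_div_factorial hj, par0 r hr j hj, JS, mem_filter, mem_range,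
    Nat.lt_succ_iff]
  exact (and_iff_right hj).symm

theorem le_of_JS {r j : ℕ} (h : j ∈ JS r) : j ≤ r :=
  Nat.lt_succ_iff.1 (mem_range.1 (mem_filter.1 h).1)

theorem exists_cf (p : Par) : ∃ cf : ℕ → Dual K (SL → K), ∀ r < 64, ∀ i ≤ r, ∀ j,
    cf j (mono p r i) = if j = i then 1 else 0 := by
  classical
  refine ⟨fun j => lcoeff K j ∘ₗ Lagrange.interpolate univ p.κ ∘ₗ
    LinearMap.funLeft K K fun t : F => ww F * uu t, fun r hr i hi j => ?_⟩
  have h1 : LinearMap.funLeft K K (fun t : F => ww F * uu t) (mono p r i) =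
      fun t => (X ^ i : K[X]).eval (p.κ t) := by
    funext t
    have e1 : (ww F * uu t) 1 0 = 1 := by simp only [ent, ent2]
    have e2 : (ww F * uu t) 1 1 = t := by simp only [ent, ent2]
    show p.κ ((ww F * uu t) 1 0) ^ (r - i) * p.κ ((ww F * uu t) 1 1) ^ i = _
    rw [e1, e2, map_one, one_pow, one_mul, eval_pow, eval_X]
  rw [LinearMap.comp_apply, LinearMap.comp_apply, h1, ← Lagrange.eq_interpolate
    p.κ.injective.injOn (by
      rw [degree_X_pow, card_univ, card_F]
      exact_mod_cast lt_of_le_of_lt hi hr), lcoeff_apply, coeff_X_pow]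

theorem SP_eq (p : Par) {r : ℕ} (hr : r < 64) :
    SP p r = Submodule.span K (Set.range fun j : JS r => mono p r j) := by
  refine le_antisymm (Sp_le 2 fun j hj h => Submodule.subset_span ⟨⟨j, (par hr hj).1 h⟩, rfl⟩)
    (Submodule.span_le.2 ?_)
  rintro _ ⟨⟨j, hj⟩, rfl⟩
  refine mono_mem (F := F) p.κ.injective (by rwa [card_F]) 2 (fun t => ?_) (le_of_JS hj)
    ((par hr (le_of_JS hj)).2 hj)
  have := mem_Sp (k := K) (cc p.κ) (dd p.κ) r 1 (p.κ t)
  rwa [one_smul] at this

theorem mono_stmt : MonoStmt := fun p => by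
  obtain ⟨cf, hcf⟩ := exists_cf p
  refine ⟨⟨cf, hcf⟩, fun r hr => ⟨fun f => ?_, ?_, fun g v hv => RR_Sp p.κ g r hv⟩⟩
  · rw [SP_eq p hr, Submodule.mem_span_range_iff_exists_fun]
    constructor
    · rintro ⟨c, rfl⟩
      refine ⟨fun j => if h : j ∈ JS r then c ⟨j, h⟩ else 0, ?_⟩
      rw [← sum_coe_sort (JS r)]
      exact sum_congr rfl fun j _ => by simp only [dif_pos j.2]
    · rintro ⟨c, rfl⟩
      exact ⟨fun j => c j, sum_coe_sort (JS r) fun j => c j • mono p r j⟩
  · rw [SP_eq p hr, finrank_span_eq_card, Fintype.card_coe, dS]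
    refine Fintype.linearIndependent_iff.2 fun c hc j => ?_
    have := congrArg (cf j) hc
    rw [map_sum, map_zero, sum_eq_single j] at this
    · rwa [map_smul, hcf r hr _ (le_of_JS j.2), if_pos rfl, smul_eq_mul, mul_one] at this
    · intro i _ hi
      rw [map_smul, hcf r hr _ (le_of_JS i.2), if_neg fun e => hi (Subtype.ext e.symm), smul_zero]
    · exact fun h => absurd (mem_univ j) h

end Cfsg.Agent.H15.E82Mono
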