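import Mathlib
import Cfsg.Agent.H42.FvDefs

/-! The generic vector of the adjoint module is conjugate into the Borel subalgebra: dominance. -/

set_option autoImplicit false

namespace Cfsg.Agent.H15.FvDom

open Equiv Cfsg.Lie H37 H40 H34 H29 Module H50.E83 Cfsg.Agent.H42.Fv MvPolynomial
open scoped Matrix

theorem step (ent : EntStmt) {A : Type} [CommRing A] (I : Ideal A) (y z : Ix → A) (T T' : Rt → A)
    (r : Rt) (t a : A) (ht : t ∈ I) (hT : ∀ s, T s ∈ I) (hy : al r y - a ∈ I) (h0 : T r = 0)
    (h1 : T' r = -a * t) (h2 : ∀ s, s ≠ r → T' s = T s)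
    (ha : ∀ i : Rk, z (Sum.inl i) - y (Sum.inl i) ∈ I ^ 2)
    (hb : ∀ s : Rt, z (Sum.inr s) - T s ∈ I ^ 2) :
    (∀ i : Rk, (xR A r t *ᵥ z) (Sum.inl i) - y (Sum.inl i) ∈ I ^ 2) ∧
      ∀ s : Rt, (xR A r t *ᵥ z) (Sum.inr s) - T' s ∈ I ^ 2 := by
  obtain ⟨cf, -, h⟩ := ent
  obtain ⟨e1, e2⟩ := h A r t z
  have le : I ^ 2 ≤ I := Ideal.pow_le_self two_ne_zero
  have mm : ∀ {u v : A}, u ∈ I → v ∈ I → u * v ∈ I ^ 2 := fun hu hv => by
    rw [pow_two]; exact Ideal.mul_mem_mul hu hv
  have hz : ∀ s : Rt, z (Sum.inr s) ∈ I := fun s => by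
    have := I.add_mem (le (hb s)) (hT s)
    rwa [sub_add_cancel] at this
  have hal : al r z - a ∈ I := by
    have h3 : al r z - al r y ∈ I := by
      unfold al
      rw [← Finset.sum_sub_distrib]
      refine I.sum_mem fun i _ => ?_
      rw [← sub_mul]
      exact I.mul_mem_right _ (le (ha i))
    have := I.add_mem h3 hy
    rwa [sub_add_sub_cancel] at this
  refine ⟨fun i => ?_, fun s => ?_⟩
  · rw [e1, add_sub_right_comm]
    exact Ideal.add_mem _ (ha i) (Ideal.mul_mem_right _ _ (mm ht (hz _)))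
  · rw [e2, add_sub_right_comm]
    refine Ideal.add_mem _ ?_ (Ideal.sum_mem _ fun s' _ => ?_)
    · by_cases hs : s = r
      · subst hs
        have h4 := hb s
        rw [h0, sub_zero] at h4
        rw [if_pos rfl, h1]
        have h5 := Ideal.sub_mem _ (Ideal.sub_mem _ h4 (mm hal ht))
          (Ideal.mul_mem_left _ t (mm ht (hz (C8.R.neg s))))
        convert h5 using 1
        ring
      · rw [if_neg hs, add_zero, h2 s hs]
        exact hb s
    · rw [mul_assoc]
      exact Ideal.mul_mem_left _ _ (mm ht (hz s'))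

open Classical in
theorem dom (ent : EntStmt) (reg : RegStmt) (ai : AlgIndStmt) : DomStmt := by
  obtain ⟨h, -, hh⟩ := reg
  let y : Ix → R8 := Sum.elim (fun i => C (h (Sum.inl i)) + X (Sum.inl i))
    fun r => if r ∈ Pos then X (Sum.inr r) else 0
  have y1 : ∀ i : Rk, y (Sum.inl i) = C (h (Sum.inl i)) + X (Sum.inl i) := fun _ => rfl
  have y2 : ∀ r : Rt, y (Sum.inr r) = if r ∈ Pos then X (Sum.inr r) else 0 := fun _ => rfl
  clear_value y
  set I : Ideal R8 := Ideal.span (Set.range (X : Ix → R8)) with hI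
  have hX : ∀ j, (X j : R8) ∈ I := fun j => Ideal.subset_span ⟨j, rfl⟩
  have hy : ∀ r, al r y - C (al r h) ∈ I := fun r => by
    unfold al
    rw [map_sum, ← Finset.sum_sub_distrib]
    refine I.sum_mem fun i _ => ?_
    rw [y1, map_mul, map_intCast, ← sub_mul, add_sub_cancel_left]
    exact I.mul_mem_right _ (hX _)
  have ind : ∀ M : List Rt, M.Nodup → (∀ r ∈ M, r ∉ Pos) →
      (∀ i : Rk, (xL R8 (M.map fun r => (r, X (Sum.inr r))) *ᵥ y) (Sum.inl i) - y (Sum.inl i) ∈ I ^ 2) ∧
      ∀ s : Rt, (xL R8 (M.map fun r => (r, X (Sum.inr r))) *ᵥ y) (Sum.inr s) -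
        (if s ∈ M then -C (al s h) * X (Sum.inr s) else y (Sum.inr s)) ∈ I ^ 2 := by
    intro M
    induction M with
    | nil =>
      intro _ _
      have : xL R8 (([] : List Rt).map fun r => (r, X (Sum.inr r))) *ᵥ y = y := Matrix.one_mulVec y
      rw [this]
      refine ⟨fun i => ?_, fun s => ?_⟩
      · rw [sub_self]; exact zero_mem _
      · rw [if_neg List.not_mem_nil, sub_self]; exact zero_mem _
    | cons r M ih =>
      intro hn hp
      obtain ⟨hr, hn⟩ := List.nodup_cons.1 hn
      obtain ⟨ha, hb⟩ := ih hn fun s hs => hp s (List.mem_cons_of_mem _ hs)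
      have : xL R8 ((r :: M).map fun r => (r, X (Sum.inr r))) *ᵥ y =
          xR R8 r (X (Sum.inr r)) *ᵥ (xL R8 (M.map fun r => (r, X (Sum.inr r))) *ᵥ y) := by
        rw [Matrix.mulVec_mulVec, xL, xL, List.map_cons, List.map_cons, List.prod_cons]
      rw [this]
      refine step ent I y _ _ _ r _ (C (al r h)) (hX _) (fun s => ?_) (hy r) ?_ ?_ (fun s hs => ?_)
        ha hb
      · split_ifs
        · exact I.mul_mem_left _ (hX _)
        · rw [y2]
          split_ifs
          · exact hX _
          · exact zero_mem _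
      · rw [if_neg hr, y2, if_neg (hp r List.mem_cons_self)]
      · rw [if_pos List.mem_cons_self]
      · simp only [List.mem_cons, hs, false_or]
  let M : List Rt := (Finset.univ.filter fun r : Rt => r ∉ Pos).toList
  have hM : ∀ r, r ∈ M ↔ r ∉ Pos := fun r => by
    rw [Finset.mem_toList, Finset.mem_filter]
    exact and_iff_right (Finset.mem_univ _)
  obtain ⟨ha, hb⟩ := ind M (Finset.nodup_toList _) fun r hr => (hM r).1 hr
  refine ⟨M.map fun r => (r, X (Sum.inr r)), y, fun r hr => ?_, ?_⟩
  · by_contra hp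
    exact hr (by rw [y2, if_neg hp])
  · refine ai Ix _ (Sum.elim (fun i => h (Sum.inl i)) fun _ => 0)
      (Sum.elim (fun _ => 1) fun r => if r ∈ Pos then 1 else -al r h) ?_ ?_
    · rintro (i | r)
      · exact one_ne_zero
      · show (if r ∈ Pos then (1 : K) else -al r h) ≠ 0
        split_ifs
        · exact one_ne_zero
        · exact neg_ne_zero.2 (hh r)
    · rintro (i | r)
      · have := ha i
        rw [y1, ← sub_sub] at this
        rw [Sum.elim_inl, Sum.elim_inl, map_one, one_mul]
        exact this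
      · have := hb r
        rw [Sum.elim_inr, Sum.elim_inr, map_zero, sub_zero]
        by_cases hp : r ∈ Pos
        · rw [if_neg (fun e => (hM r).1 e hp), y2, if_pos hp] at this
          rw [if_pos hp, map_one, one_mul]
          exact this
        · rw [if_pos ((hM r).2 hp)] at this
          rw [if_neg hp, map_neg]
          exact this

end Cfsg.Agent.H15.FvDom
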