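import Mathlib
import Cfsg.Agent.H98.GbG

/-! A `p`-subgroup centralising an element in the support of a block idempotent. -/

set_option autoImplicit false

namespace Cfsg.Agent.H15.GbR2s

open Cfsg.Agent.H98.GB

universe u

theorem r2s : R2SStmt.{u} := by
  intro G _ _ p _ M hM B hB D hD g hg P hP hc
  obtain ⟨x, hx⟩ := H17.dg_exists_cs_le_of_coeff hM hB hD hg hP
    fun y hy => Subgroup.mem_centralizer_singleton_iff.2 (hc y hy)
  exact ⟨x, fun y hy => hx ⟨y, hy, rfl⟩⟩

end Cfsg.Agent.H15.GbR2s
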