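import Mathlib
import Cfsg.Agent.H50.L81Defs
import Cfsg.Agent.H27.FvFrob

/-! Project L81: rational points of twisted forms and involutions of the torus. -/

set_option autoImplicit false
set_option maxRecDepth 100000

namespace Cfsg.Agent.H15.L81Zel

open Cfsg.Lie H37 H40 H34 H29 H50.E83 H50.L81
open H42.Fv (Ph sg frV act_mul act_inv_act)
open H27.FvFrob (frob fr_apply)

theorem sg_apply (n b : GK) : sg n b = n * Ph b * n⁻¹ := rfl

theorem cast2 (hζ : IsPrimitiveRoot (-1 : Kˣ) 2) {a b : ℤ} (h : (a : ZMod 2) = b) :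
    (-1 : Kˣ) ^ a = (-1) ^ b := (zpow_eq_iff hζ).2 h

theorem one (g n : GK) (h : g⁻¹ * Ph g = n) :
    (∀ a : G0, sg n (g⁻¹ * ι a * g) = g⁻¹ * ι a * g) ∧
      ∀ b, sg n b = b → ∃ a : G0, g⁻¹ * ι a * g = b := by
  subst h
  refine ⟨fun a => ?_, fun b hb => ?_⟩
  · rw [sg_apply, map_mul, map_mul, map_inv, (frob.2.1 _).2 ⟨a, rfl⟩]
    group
  · obtain ⟨a, ha⟩ := (frob.2.1 (g * b * g⁻¹)).1 (by
      rw [map_mul, map_mul, map_inv]
      conv_rhs => rw [← hb, sg_apply]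
      group)
    exact ⟨a, by rw [ha]; group⟩

theorem zel : ZelStmt := by
  refine ⟨one, fun g n h hn χ hχ e => ?_, fun w hw => P8.exists_lift hw, fun n b v => ?_⟩
  · have hζ : IsPrimitiveRoot (-1 : Kˣ) 2 := IsPrimitiveRoot.coe_units_iff.1
      (by simpa using IsPrimitiveRoot.neg_one (R := K) 3 (by decide))
    obtain ⟨t, ht⟩ : ∃ t, Lab C8 (-1 : Kˣ) t χ := exists_lab8 hζ hχ
    have h1 : Ph t = t ^ 3 := by
      obtain ⟨-, c, rfl, -⟩ := ht
      rw [Ph, H73.Phi, C8.fieldHom_tg_pow fr_apply, map_pow]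
    have e' := fun r => cast2 hζ (e r)
    have h2 : n⁻¹ * t * n = t := ((ht.conj hn).eq_iff ht).2 e'
    obtain ⟨z, hz⟩ := (one g n h).2 t (by
      rw [sg_apply, h1, pow_succ, ht.pow_eq_one hζ, one_mul]
      conv_lhs => rw [← h2]
      group)
    exact ⟨z, hz ▸ ht⟩
  · rw [sg_apply, act_mul, act_mul, act_inv_act, frob.1]

end Cfsg.Agent.H15.L81Zel
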