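import Mathlib
import Cfsg.Agent.H15.O8Q2

/-! The field with two elements: the frame of the whole group. -/

set_option autoImplicit false
set_option linter.unusedSimpArgs false
set_option linter.unnecessarySeqFocus false
set_option linter.unusedSectionVars false

namespace Cfsg.Agent.H15.O8

open Cfsg.Agent.H39 Cfsg.Agent.H83 Subgroup
open scoped commutatorElement

variable {K : Type*} [Field K] {T : Tits K} {G : Type*} [Group G]
variable [Finite K] [Finite G] {F : CF T G} {n1 n8 : G} {P : Subgroup G}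

theorem comm_cj {a b : G} (g : G) (h : a * b = b * a) :
    g * a * g⁻¹ * (g * b * g⁻¹) = g * b * g⁻¹ * (g * a * g⁻¹) := by
  simp only [mul_assoc, inv_mul_cancel_left]
  rw [← mul_assoc a, h, mul_assoc]

/-- Normal form of words. -/
macro "o8w" : tactic =>
  `(tactic| simp only [pow_succ, pow_zero, one_mul, mul_one, mul_inv_rev, inv_inv, mul_assoc,
    inv_mul_cancel_left, mul_inv_cancel_left, mul_inv_cancel, inv_mul_cancel, inv_one])

theorem f20' {n y : G} (hn : n * n = 1) (hy : y * y * (y * y) = 1)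
    (h : n * y * n = y * n * (y * y)) : n * (y * y) * n = y * (y * y) * n * y ∧
      n * (y * (y * y)) * n = y * y * n * (y * (y * y)) := by
  have e3 : y⁻¹ = y * (y * y) := inv_eq_of_mul_eq_one_right (by rw [← hy]; o8w)
  have h' : n * (y * (y * y)) * n = y * y * n * (y * (y * y)) := by
    have := congrArg Inv.inv h
    rw [mul_inv_rev, mul_inv_rev, mul_inv_rev, mul_inv_rev y n, inv_eq_of_mul_eq_one_right hn,
      inv_eq_of_mul_eq_one_right hy, e3] at this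
    simpa only [mul_assoc] using this
  refine ⟨?_, h'⟩
  calc _ = n * y * (n * n) * y * n := by rw [hn]; o8w
    _ = (n * y * n) * (n * y * n) := by o8w
    _ = y * (n * (y * (y * y)) * n) * (y * y) := by rw [h]; o8w
    _ = y * (y * y) * n * y * (y * y * (y * y)) := by rw [h']; o8w
    _ = _ := by rw [hy, mul_one]

theorem le_C_of {f : U T →* U T} (fi : Function.Injective f) {z : U T} (e8 : n8 = F.n * F.φ z)
    (hd : ∀ c, F.d c = 1) {H : Subgroup G} (h1 : ∀ u, F.φ (f u) ∈ H) (h2 : n8 ∈ H) : F.C ≤ H := by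
  have k1 : ∀ u, F.φ u ∈ H := fun u => by
    obtain ⟨u, rfl⟩ := Finite.surjective_of_injective fi u
    exact h1 u
  refine F.C_le k1 (fun c => by rw [hd]; exact one_mem _) ?_
  rw [← mul_inv_eq_iff_eq_mul.2 e8]
  exact mul_mem h2 (inv_mem (k1 z))

variable (hq : ∀ t : K, t = 0 ∨ t = 1)
  (h : AD F.C (F.s (Q T)) (F.s (W T)) (F.φ (x4 T 1)) n1 n8 P)
include hq h

set_option maxHeartbeats 800000 in
theorem AD.frame {y : G} (hy : y ∈ P) (r2 : n8 * y * n8 = y * n8 * (y * y)) {c0 c1 : K}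
    (ey : y = F.φ (y8 T 1 * (y4 T c0 * x4 T c1))) {z : U T} (hz : z ∈ Z T) (e8 : n8 = F.n * F.φ z) :
    ∃ M : FF T G, M.cf.C = F.C := by
  have i1 := inv_eq_of_mul_eq_one_right h.n1n1
  have i8 := inv_eq_of_mul_eq_one_right h.n8n8
  have d1 : ∀ g, n1 * (n1 * g) = g := fun g => by rw [← mul_assoc, h.n1n1, one_mul]
  have d8 : ∀ g, n8 * (n8 * g) = g := fun g => by rw [← mul_assoc, h.n8n8, one_mul]
  have n8n : ∀ g ∈ F.C, n8 * g * n8 = F.n * g * F.n⁻¹ := fun g hg => by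
    calc _ = n8 * g * n8⁻¹ := by rw [i8]
      _ = _ := by rw [e8, mul_assoc F.n, F.cZ hg _ (F.φ_mem_s.2 hz)]; group
  have n8φ : ∀ u ∈ Q T, n8 * F.φ u * n8 = F.φ (w8 u) := fun u hu => by
    rw [n8n _ (F.φ_mem u), F.n_conj hu]
  set τ := F.φ (x4 T 1) with hτ
  set r := n1 * n8 with hr
  have inQ : ∀ g ∈ F.C, g ∈ normalizer (F.s (W T) : Set G) →
      r * g * r⁻¹ ∈ normalizer (F.s (W T) : Set G) → ∃ u ∈ Q T, g = F.φ u := fun g hg h1 h2 => by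
    obtain ⟨u, rfl⟩ := F.mem_S hq ((F.nW g hg).1 h1)
    refine ⟨u, (F.Qn u).1 ?_, rfl⟩
    have := n8n _ hg
    rw [F.n_inv] at this
    rw [← cj_normalizer, mem_cj, F.n_inv, ← this]
    convert mul_mem (mul_mem h.n1W h2) h.n1W using 1
    simp only [hr, mul_inv_rev, i1, i8, mul_assoc, d1, h.n1n1, mul_one]
  have PC : ∀ j ≤ 4, (r ^ j)⁻¹ * y * r ^ j ∈ F.C := fun j hj => mem_cj.1 (h.PC j hj hy)
  have PW : ∀ j ≤ 3, (r ^ j)⁻¹ * y * r ^ j ∈ normalizer (F.s (W T) : Set G) := fun j hj =>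
    mem_cj.1 (h.PW j hj hy)
  have PQ : ∀ j ≤ 2, ∃ u ∈ Q T, (r ^ (j + 1))⁻¹ * y * r ^ (j + 1) = F.φ u := fun j hj =>
    inQ _ (PC _ (by omega)) (PW _ (by omega)) (by convert PW j (by omega) using 1; group)
  have cτ8 : n8 * τ = τ * n8 := (h.cτ _).1 h.n8C
  have τ1 : τ ≠ 1 := fun e => one_ne_zero (congrArg U.a4 (F.inj (e.trans (map_one _).symm)))
  obtain ⟨w, hw, ew⟩ := (mem_normalizer_iff.1 h.n1W τ).1 (F.φ_mem_s.2 (by o8s))
  have ew' : r * τ * r⁻¹ = F.φ w := by rw [ew, hr, mul_assoc n1, cτ8]; group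
  have w6 : w.a6 = 1 := (hq _).resolve_left fun e => by
    have e' := eq_x4_x6 hw
    rw [e, show x6 T 0 = 1 from rfl, mul_one] at e'
    rcases hq w.a4 with e4 | e4 <;> rw [e4] at e'
    · exact τ1 (by simpa [e', show x4 T 0 = 1 from rfl] using ew.symm)
    · exact h.n1C ((h.cτ _).2 (mul_inv_eq_iff_eq_mul.1 (by rw [← ew, e'])))
  have em : r⁻¹ * τ * r = F.φ (w8 w) := by
    rw [← n8φ w (W_le_Q hw), ew, hr]
    simp only [mul_inv_rev, i1, i8, mul_assoc]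
  have cm : F.φ w * F.φ (w8 w) = F.φ (w8 w) * F.φ w := by
    have hV := R_le_V (W_le_R hw)
    rw [← map_mul, ← map_mul, ← inv_eq_of_mul_eq_one_right (sqV _ (mul_mem hV (w8_V hV))),
      mul_inv_rev, inv_eq_of_mul_eq_one_right (sqV _ hV),
      inv_eq_of_mul_eq_one_right (sqV _ (w8_V hV))]
  rw [← ew', ← em] at cm
  have t2C : r ^ 2 * τ * (r ^ 2)⁻¹ ∈ F.C := (h.cτ _).2 (by
    convert comm_cj r cm using 1 <;> o8w)
  have t2C' : r ^ 2 * τ * (r ^ 2)⁻¹ ∈ cj (r ^ 4) F.C := mem_cj.2 ((h.cτ _).2 (by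
    convert comm_cj r⁻¹ cm.symm using 1 <;> o8w))
  have ec : y * y = F.φ (x8 T 1 * x4 T c0) := by
    rw [ey, ← map_mul]; congr 1
    rcases hq c0 with rfl | rfl <;> o8s <;> o8ring T
  have t2 : y * y = r ^ 2 * τ * (r ^ 2)⁻¹ := by
    obtain ⟨s, es⟩ := F.mem_S hq (F.cen _ t2C w w (by
      rw [mul_inv_eq_iff_eq_mul, ← ew']
      have := (h.cτ _).1 (F.φ_mem w)
      rw [← ew'] at this
      convert comm_cj r this using 1 <;> o8w)
      (Or.inl ⟨W_le_R hw, fun e => one_ne_zero (w6.symm.trans e.2.2.2.2.2.2.2.1), W_le_R hw⟩))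
    have s2 : s * s = 1 := F.inj (by
      rw [map_mul, ← es, map_one]; exact conj_sq (F.sq_Z (F.φ_mem_s.2 (by o8s))) _)
    have sQ : s ∉ Q T := fun e => τ1 (by simpa using h.triv _ (es ▸ F.φ_mem_s.2 e) t2C')
    have b8 : s.b8 = 0 := by
      have := congrArg U.a8 s2
      o8s at this
      exact nrm_eq_zero (T := T) (by revert this; o8ring T)
    have a8 : s.a8 = 1 := (hq _).resolve_left fun e => sQ ⟨b8, e⟩
    refine mul_inv_eq_one.1 (h.triv _ ?_ (mul_mem (mul_mem (h.PC 4 le_rfl hy) (h.PC 4 le_rfl hy))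
      (inv_mem t2C')))
    rw [ec, es, ← map_inv, ← map_mul, F.φ_mem_s]
    o8s; rw [a8, b8]; o8ring T
  have c8 : ∀ {v : U T}, F.φ v * (y * y) = y * y * F.φ v → v * x8 T 1 = x8 T 1 * v := fun {v} e => by
    rw [ec, ← map_mul, ← map_mul, mul_assoc, ← cZ (x4 T c0) (by o8s) v, ← mul_assoc,
      ← mul_assoc] at e
    exact mul_right_cancel (F.inj e)
  have cy : ∀ j ≤ 4, y * (r ^ j * τ * (r ^ j)⁻¹) = r ^ j * τ * (r ^ j)⁻¹ * y := fun j hj => by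
    convert comm_cj (r ^ j) ((h.cτ _).1 (PC j hj)) using 1 <;> o8w
  obtain ⟨b, hb, eb⟩ := PQ 0 (by omega)
  obtain ⟨a, ha, ea⟩ := PQ 1 (by omega)
  obtain ⟨a2, ha2, ea2⟩ := PQ 2 (by omega)
  have fa := form4 hq ha (c8 (by
    rw [← ea, t2]; convert comm_cj (r ^ 2)⁻¹ (cy 4 le_rfl) using 1 <;> o8w)) (c8 (by
    rw [← n8φ a ha, ← ea, t2]
    have := comm_cj (n8 * (r ^ 2)⁻¹) (cy 0 (by omega))
    have e : n8 * (r ^ 2)⁻¹ * τ * (n8 * (r ^ 2)⁻¹)⁻¹ = r ^ 2 * τ * (r ^ 2)⁻¹ := by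
      rw [show n8 * (r ^ 2)⁻¹ = r ^ 2 * n8 by
        simp only [hr, sq, mul_inv_rev, i1, i8, mul_assoc, d8, h.n8n8, mul_one], mul_assoc _ n8, cτ8]
      group
    rw [pow_zero, one_mul, inv_one, mul_one, e, mul_inv_rev n8, i8] at this
    convert this using 2 <;> group)) (F.inj (by
    rw [map_mul, ← ea]
    calc _ = (r ^ 2)⁻¹ * (y * y) * r ^ 2 := by group
      _ = τ := by rw [t2]; group))
  have ebb : b * b = w := F.inj (by
    rw [map_mul, ← eb, ← ew']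
    calc _ = r⁻¹ * (y * y) * r := by group
      _ = _ := by rw [t2]; group)
  have fb := form6 hq hb (c8 (by
    rw [← eb, t2]; convert comm_cj r⁻¹ (cy 3 (by omega)) using 1 <;> o8w)) (F.inj (by
    rw [ebb, map_mul, map_mul, ← em, ← eb]
    convert comm_cj r⁻¹ (cy 0 (by omega)) using 1 <;> o8w)) (by
    rw [ebb, ← w6]; exact eq_x4_x6 hw)
  have wa : w8 a = a := by rw [fa]; o8s
  have h46 : Sw F.φ n1 a b := by
    rw [Sw, ← wa, ← n8φ a ha, ← ea, ← eb, hr]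
    simp only [pow_succ, pow_zero, one_mul, mul_inv_rev, i1, i8, mul_assoc, d1, d8, h.n1n1, mul_one]
  have h28 : Sw F.φ n1 (w8 b) (y8 T 1 * (y4 T c0 * x4 T c1)) := by
    rw [Sw, ← n8φ b hb, ← eb, ← ey, hr]
    simp only [pow_succ, pow_zero, one_mul, mul_inv_rev, i1, i8, mul_assoc, d1, d8, h.n1n1, mul_one]
  obtain ⟨f, fi, f8, f1, fE, fQ⟩ := core hq F.inj h.n1n1 fa fb rfl h46 h28
  have f8' : F.φ (f (y8 T 1)) = y := by rw [f8, ey]
  have f8'' : F.φ (f (x8 T 1)) = y * y := by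
    rw [← f8', ← map_mul, ← map_mul]; congr 2; o8s; o8ring T
  have X2 : F.φ (f (x1 T 1)) * F.φ (f (x1 T 1)) = 1 := by
    rw [← map_mul, ← map_mul, show x1 T 1 * x1 T 1 = 1 by o8s; o8ring T, map_one, map_one]
  have X3 : (n1 * F.φ (f (x1 T 1))) ^ 3 = 1 := by
    refine h.three _ (F.φ_mem _) (F.φ_norm_W _) ?_ fun e =>
      one_ne_zero (congrArg U.a1 (fi ((F.inj (e.trans (map_one _).symm)).trans (map_one _).symm)))
    obtain ⟨q, -, e⟩ : ⁅(r ^ 4)⁻¹ * y * r ^ 4, F.φ a2⁆ ∈ F.s (Q T) := mul_mem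
      (conj_mem F.nQ (PC 4 le_rfl) (F.φ_mem_s.2 ha2)) (inv_mem (F.φ_mem_s.2 ha2))
    have r4 : (r ^ 4)⁻¹ * n8 = n1 * (r ^ 3)⁻¹ := by
      rw [inv_eq_of_mul_eq_one_right (show r ^ 4 * r ^ 4 = 1 by rw [← pow_add, h.braid])]
      simp only [hr, pow_succ, pow_zero, one_mul, mul_inv_rev, i1, i8, mul_assoc, h.n8n8, mul_one]
    have r4' : n8 * r ^ 4 = r ^ 3 * n1 := by
      simpa only [mul_inv_rev, inv_inv, i1, i8] using congrArg Inv.inv r4
    have hm := mul_mem (mul_mem h.n1W (F.φ_norm_W q)) h.n1W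
    rw [e, ← ea2] at hm
    rw [mem_cj, f1, ← n8φ _ (by
      rw [commutatorElement_def, mul_assoc, mul_assoc, ← mul_assoc _ b⁻¹]
      exact mul_mem hb (O8.nQ.conj_mem _ (inv_mem hb) _)), map_commutatorElement, ← ey, ← eb,
      ← mul_assoc, ← mul_assoc, r4, mul_assoc _ n8, r4']
    convert hm using 1
    simp only [commutatorElement_def]
    o8w
  have y4 : y * y * (y * y) = 1 := by
    rw [t2]; exact conj_sq (F.sq_Z (F.φ_mem_s.2 (by o8s))) _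
  refine ⟨⟨⟨F.φ.comp f, F.inj.comp fi, n1, n8, 1, h.n1n1, h.n8n8, fE, fun u hu => ?_, fun c u => ?_,
    by simp [h.n1n1], by simp [h.n8n8], fun t => ?_, fun u hu u1 => ?_⟩, h.braid⟩, ?_⟩
  · rw [MonoidHom.comp_apply, n8φ _ (fQ u hu).1, (fQ u hu).2]; rfl
  · rw [show c = 1 from Prod.ext (unit_one hq _) (unit_one hq _)]; simp
  · rw [unit_one hq t]
    simp only [inv_one, Units.val_one, MonoidHom.comp_apply, MonoidHom.one_apply, mul_one]
    generalize F.φ (f (x1 T 1)) = X at X2 X3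
    calc _ = (n1 * X) ^ 3 * (X * n1 * X)⁻¹ := by o8w
      _ = _ := by rw [X3, one_mul, mul_inv_rev, mul_inv_rev, i1, inv_eq_of_mul_eq_one_right X2,
        mul_assoc]
  · obtain ⟨r3, r4⟩ := f20' h.n8n8 y4 r2
    have eu : u = y8 T u.b8 * x8 T u.a8 := by revert hu; o8s; simp +contextual
    simp only [MonoidHom.comp_apply, MonoidHom.one_apply, mul_one]
    rcases hq u.b8 with e1 | e1 <;> rcases hq u.a8 with e2 | e2 <;> rw [e1, e2] at eu
    · exact absurd (eu.trans (by o8s)) u1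
    · exact ⟨y8 T 1 * x8 T 1, by o8s, y8 T 1, by o8s, 1, by
        rw [eu, show y8 T 0 = 1 from rfl, one_mul, map_mul, map_mul, f8', f8'', r3]⟩
    · exact ⟨y8 T 1, by o8s, x8 T 1, by o8s, 1, by
        rw [eu, show x8 T 0 = 1 from rfl, mul_one, f8', f8'', r2]⟩
    · exact ⟨x8 T 1, by o8s, y8 T 1 * x8 T 1, by o8s, 1, by
        rw [eu, map_mul, map_mul, f8', f8'', r4]⟩
  · refine le_antisymm (CF.C_le _ (fun u => F.φ_mem _) (fun c => one_mem _) h.n8C) ?_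
    refine le_C_of fi e8 (fun c => by rw [unit_one hq c, map_one]) ?_ ?_
    exacts [fun u => CF.φ_mem (PF.cf _) u, CF.n_mem (PF.cf _)]

theorem AD.q2b (h8 : Cg (F.s (Q T)) n8 F.n) : ∃ M : FF T G, M.cf.C = F.C := by
  obtain ⟨y, hy, hY⟩ := h.exists_y hq
  obtain ⟨r1, r2⟩ := h.rels hq hy h8 hY
  have yQ : y ∈ normalizer (F.s (Q T) : Set G) := F.nQ (by simpa [cj_one] using h.PC 0 (by omega) hy)
  obtain ⟨_, ⟨q, hQ, rfl⟩, e⟩ := conj_of_five (F.isPGroup_s (Q T))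
    (F.nQ (mul_mem F.n_mem (mul_mem (F.φ_mem _) (F.φ_mem _)))) (f20 F.nn (by
      rw [← map_mul, ← map_mul, show y8 T 1 * y8 T 1 * (y8 T 1 * y8 T 1) = 1 by o8s; o8ring T,
        map_one]) (F.rel hq)).1 (f20 h.n8n8 r1 r2).1 (h8.mul (F.nQ h.n8C) (hY.mul yQ hY))
  have h' := h.cjφ q⁻¹
  have m := F.φ_mem_s.2 (inv_mem hQ)
  obtain ⟨⟨c0, c1, ey⟩, z, hz, e8⟩ := h'.normal hq hy
    (by rw [F.cjφ_Q]; exact h8.conj (F.nQ F.n_mem) m)
    (by rw [F.cjφ_Q]; exact hY.conj (F.nQ (F.φ_mem _)) m)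
    (by
      rw [CF.cj_n, CF.cj_φ, map_inv]
      calc _ = (F.φ q)⁻¹ * (F.φ q * (n8 * (y * y)) * (F.φ q)⁻¹) * F.φ q := by o8w
        _ = _ := by rw [e]; o8w)
  exact F.cjφ_C q⁻¹ ▸ h'.frame hq hy r2 ey hz e8

theorem AD.q2a : ∃ M : FF T G, M.cf.C = F.C := by
  obtain ⟨b, hb, v, -, e⟩ := (F.mem_C _ h.n8C).resolve_left fun e => h.n8W ((F.nW _ h.n8C).2 e)
  obtain ⟨s, rfl⟩ := F.mem_S hq hb
  have e' : F.φ v * n8 * (F.φ v)⁻¹ = F.φ (v * s) * F.n := by rw [e, map_mul]; group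
  have hs : v * s ∈ Q T := F.mem_Q_of_conj (by
    have := conj_sq h.n8n8 (F.φ v)
    rw [e', mul_assoc, ← mul_assoc F.n, mul_eq_one_iff_inv_eq, ← map_inv] at this
    exact this ▸ F.φ_mem_B _)
  refine F.cjφ_C v⁻¹ ▸ (h.cjφ v⁻¹).q2b hq ?_
  rw [F.cjφ_Q, Cg, CF.cj_n]
  convert F.φ_mem_s.2 (O8.nQ.conj_mem' _ hs v) using 1
  rw [e]
  simp only [map_mul, map_inv]
  group

omit hq h

variable {τ : G}

theorem cent_Z (h : Hyp F τ) (hN : normalizer (F.C : Set G) = F.C) :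
    centralizer (F.s (Z T) : Set G) = F.C :=
  le_antisymm (fun g hg => hN.le (h.norm g (hg τ h.mem).symm)) F.cZ

theorem Q_lines (hl : ∀ l, Cj (F.s (W T)) l ∧ F.s (Z T) ≤ l → ∃ k ∈ F.C, l = cj k (F.s (W T)))
    {u : U T} (hu : u ∈ Q T) (l : Subgroup G) (h1 : Cj (F.s (W T)) l) (h2 : F.s (Z T) ≤ l) :
    F.φ u ∈ normalizer (l : Set G) := by
  obtain ⟨k, hk, rfl⟩ := hl l ⟨h1, h2⟩
  obtain ⟨v, -, e⟩ := conj_mem' F.nQ hk (F.φ_mem_s.2 hu)
  rw [← cj_normalizer, mem_cj, ← e]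
  exact F.φ_norm_W v

theorem q2 (hq : Nat.card K = 2) (h : Hyp F τ) (hN : normalizer (F.C : Set G) = F.C)
    (hl : ∀ l, Cj (F.s (W T)) l ∧ F.s (Z T) ≤ l → ∃ k ∈ F.C, l = cj k (F.s (W T)))
    (ha : Apt (F.s (Z T)) (F.s (W T)) n1 n8 P) : ∃ M : FF T G, M.cf.C = F.C := by
  have hC := cent_Z h hN
  have hC' : ∀ g, centralizer (cj g (F.s (Z T)) : Set G) = cj g F.C := fun g => by
    rw [← cj_centralizer, hC]
  refine AD.q2a (eq01 hq) (n1 := n1) (n8 := n8) (P := P) ⟨fun g => ⟨fun hg =>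
    (F.cZ hg _ (F.φ_mem_s.2 (by o8s))).symm, fun e => hC.le ?_⟩, ha.n1n1, ha.n8n8, ha.braid, ha.n1W,
    fun e => ha.n1Z (F.norm_C_le_norm_Z (le_normalizer e)), hC.le ha.n8Z, ha.n8W,
    (hC' _).le ha.n8Z', ha.card, fun j hj => hC' _ ▸ ha.PZ j hj,
    fun j hj => (ha.PW j hj).trans (cj_normalizer _ _).ge,
    fun g h1 h2 h3 => ha.three g (hC.ge h1) h2 (cj_normalizer _ (F.s (W T)) ▸ h3), ?_⟩
  · rintro _ ⟨z, hz, rfl⟩
    have e' := eq_x4 hz
    rcases eq01 hq z.a4 with e4 | e4 <;> rw [e4] at e'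
    · simp [e', show x4 T 0 = 1 from rfl]
    · rw [e', e]
  · rintro _ ⟨u, hu, rfl⟩ hg
    exact ha.triv _ (F.cZ (F.φ_mem u)) (F.two_φ u) (Q_lines hl hu)
      (centralizer_le_normalizer _ ((hC' _).ge hg))

theorem apt_hyp (hq : Nat.card K = 2) (h : Hyp F τ) (hN : normalizer (F.C : Set G) = F.C)
    (hl : ∀ l, Cj (F.s (W T)) l ∧ F.s (Z T) ≤ l → ∃ k ∈ F.C, l = cj k (F.s (W T))) :
    Nat.card (F.s (Z T)) = 2 ∧
    IsPGroup 2 ↥(centralizer (F.s (Z T) : Set G) ⊓ normalizer (F.s (W T) : Set G)) ∧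
    (∃ g ∈ centralizer (F.s (Z T) : Set G) ⊓ normalizer (F.s (W T) : Set G),
      g ∉ centralizer (F.s (W T) : Set G)) ∧
    ∀ g ∈ centralizer (F.s (Z T) : Set G) ⊓ normalizer (F.s (W T) : Set G),
      ∀ g' ∈ centralizer (F.s (Z T) : Set G) ⊓ normalizer (F.s (W T) : Set G), g * g = 1 →
        g' * g' = 1 → (∀ l, Cj (F.s (W T)) l → F.s (Z T) ≤ l → g ∈ normalizer (l : Set G)) ∨
        (∀ l, Cj (F.s (W T)) l → F.s (Z T) ≤ l → g' ∈ normalizer (l : Set G)) ∨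
        ∀ l, Cj (F.s (W T)) l → F.s (Z T) ≤ l → g * g' ∈ normalizer (l : Set G) := by
  rw [cent_Z h hN]
  have key : ∀ g ∈ F.C ⊓ normalizer (F.s (W T) : Set G), ∃ u, g = F.φ u := fun g hg =>
    F.mem_S (eq01 hq) ((F.nW g hg.1).1 hg.2)
  have b8 : ∀ {s : U T}, F.φ s * F.φ s = 1 → s.b8 = 0 := fun {s} e => by
    have := congrArg U.a8 (F.inj ((map_mul _ _ _).trans (e.trans (map_one _).symm)))
    o8s at this
    exact nrm_eq_zero (T := T) (by revert this; o8ring T)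
  refine ⟨by rw [F.card_s, card_Z, hq, pow_one], F.isPGroup_S.to_le fun g hg => (key g hg).imp fun _ => Eq.symm,
    ⟨F.φ (x1 T 1), ⟨F.φ_mem _, F.φ_norm_W _⟩, fun e => ?_⟩, fun g hg g' hg' e e' => ?_⟩
  · exact one_ne_zero (mem_E.1 (F.φ_mem_s.1 (F.cW.le ⟨F.φ_mem _, e⟩)))
  obtain ⟨s, rfl⟩ := key g hg
  obtain ⟨s', rfl⟩ := key g' hg'
  rcases eq01 hq s.a8 with a | a
  · exact Or.inl (Q_lines hl ⟨b8 e, a⟩)
  rcases eq01 hq s'.a8 with a' | a'
  · exact Or.inr (Or.inl (Q_lines hl ⟨b8 e', a'⟩))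
  refine Or.inr (Or.inr (map_mul F.φ s s' ▸ Q_lines hl ?_))
  o8s; rw [a, a', b8 e, b8 e']; o8ring T

end Cfsg.Agent.H15.O8
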