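import Mathlib
import Cfsg.Agent.H74.RuDefs

/-!
# Piece DICH of S2196
-/

set_option autoImplicit false

namespace Cfsg.Agent.H15.RuDich

open Cfsg Module Cfsg.Agent.H31 Cfsg.Agent.H74.Ru

theorem dich (frm : FrmStmt) (irr : IrrStmt) : DichStmt := by
  intro F V _ _ _ _ _ S K hK ha x y ti
  obtain ⟨v, hv, rfl, rfl⟩ := (frm S).2.1 x y ti
  obtain ⟨j, hj, hc⟩ := ha v hv
  have h := S.herm.toIsHermSymm
  let A : AddSubgroup F := (radT h ti.1 K).map (S.B.flip (v S.i1)).toAddMonoidHom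
  rcases irr F S.q j S.hF S.hq hj A (by
    rintro c _ ⟨w, hw, rfl⟩
    obtain ⟨g, hg, t, tr, e⟩ := hc c
    have gi : g ∈ isom S.B := (hK hg).1
    have e0 : g (v S.i0) = (t S.i0 : F) • v S.i0 := by
      have := tr S.i0
      rw [Fl, show ({j : Fin S.n | j.val < S.i0.val}) = ∅ from
        Set.eq_empty_of_forall_notMem fun j hj => Nat.not_lt_zero _ hj, Set.image_empty,
        Submodule.span_empty, Submodule.mem_bot, sub_eq_zero] at this
      exact this
    have e1 := tr S.i1
    rw [Fl, show ({j : Fin S.n | j.val < S.i1.val}) = {S.i0} from Set.ext fun j =>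
      ⟨fun hj => Fin.ext (Nat.lt_one_iff.1 hj), fun hj => hj ▸ Nat.zero_lt_one⟩,
      Set.image_singleton, Submodule.mem_span_singleton] at e1
    obtain ⟨μ, e1⟩ := e1
    have hw' := conj_mem_radT hg gi e0 hw
    refine ⟨_, hw', ?_⟩
    have z := h.flip_zero hw'.1
    have e2 : S.B (S.σ (t S.i0) • g w) (g (v S.i1)) = t S.i0 * S.B w (v S.i1) := by
      rw [smul_left, h.inv.invol, gi]
    rw [eq_add_of_sub_eq e1.symm, map_add, smul_right, smul_right, z, mul_zero, zero_add] at e2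
    have e3 : (c : F) ^ j = t S.i0 / t S.i1 := by
      rw [← Units.val_pow_eq_pow_val, ← e, Units.val_div_eq_div_val]
    change S.B (S.σ (t S.i0) • g w) (v S.i1) = c ^ j * S.B w (v S.i1)
    rw [e3, div_mul_eq_mul_div, ← e2, mul_div_cancel_left₀ _ (t S.i1).ne_zero]) with e | e
  · refine .inr fun w hw => ?_
    have : S.B w (v S.i1) ∈ A := ⟨w, hw, rfl⟩
    rwa [e, AddSubgroup.mem_bot] at this
  · refine .inl fun c => ?_
    have : c ∈ A := e ▸ AddSubgroup.mem_top c
    exact this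

end Cfsg.Agent.H15.RuDich
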