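import Mathlib
import Cfsg.Agent.H4.SvDefs

/-! Project SV: the simple reflections are symplectic and act by `σ`. -/

set_option autoImplicit false

namespace Cfsg.Agent.H15.SvEmb2

open Cfsg.Agent.H4.SV

theorem sym : ∀ i, smat i * Matrix.J (Fin 3) (ZMod 2) * (smat i).transpose =
    Matrix.J (Fin 3) (ZMod 2) := by decide +kernel

theorem sd (g : T9) : mS g * mD g =
    !![g.a + g.b * g.p + g.c * (g.p * g.r + g.q), g.b + g.c * g.r, g.c;
       g.b + g.d * g.p + g.e * (g.p * g.r + g.q), g.d + g.e * g.r, g.e;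
       g.c + g.e * g.p + g.f * (g.p * g.r + g.q), g.e + g.f * g.r, g.f] := by
  simp only [mS, mD, Matrix.mul_fin_three, CharTwo.neg_eq, CharTwo.sub_eq_add, mul_one, mul_zero,
    add_zero, zero_add]

theorem rel (i : Fin 3) (g : T9) (h : co i g = 0) :
    sP i * mA g = mA (σ i g) * sP i + mS (σ i g) * mD (σ i g) * sQ i ∧
    sP i * (mS g * mD g) + sQ i * mD g =
      mA (σ i g) * sQ i + mS (σ i g) * mD (σ i g) * sP i ∧
    sQ i * mA g = mD (σ i g) * sQ i ∧
    sQ i * (mS g * mD g) + sP i * mD g = mD (σ i g) * sP i := by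
  obtain ⟨p, q, r, a, b, c, d, e, f⟩ := g
  rw [sd, sd]
  fin_cases i <;> obtain rfl : _ = 0 := h <;> simp [sP, sQ, mA, mD, σ]
  · refine ⟨?_, ?_, ?_⟩ <;> ring
  · have h2 : (2 : ZMod 2) = 0 := rfl
    refine ⟨by decide, ⟨⟨?_, ?_⟩, ⟨?_, ?_⟩, ?_⟩, by decide, ?_⟩
    · linear_combination (-(q * e * p)) * h2
    · linear_combination (-(q * e)) * h2
    · linear_combination (-(r * c)) * h2
    · ring
    · linear_combination (-q) * h2
    · linear_combination c * h2

theorem emb2 : Emb2Stmt := by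
  refine ⟨fun i => SymplecticGroup.mem_iff.2 (sym i), fun i g h => ?_⟩
  obtain ⟨h1, h2, h3, h4⟩ := rel i g h
  simp only [smat, mat, Matrix.fromBlocks_multiply, Matrix.mul_zero, Matrix.zero_mul, add_zero,
    zero_add, h1, h2, h3, h4]

end Cfsg.Agent.H15.SvEmb2
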