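import Mathlib
import Cfsg.Agent.H53.UwDefs

/-! Project UW: the piece TW (the simple module of a twisted group algebra). -/

set_option autoImplicit false

namespace Cfsg.Agent.H15.UwTw

open Module Cfsg.Agent.H31 Cfsg.Agent.H53.Uw

universe u

section Abstract

variable {V : Type u} [AddCommGroup V] (c : V → V → ℂ)

/-- A projective representation with cocycle `c`. -/
def Rel {A : Type*} [Ring A] [Algebra ℂ A] (e : V → A) : Prop :=
  e 0 = 1 ∧ ∀ u v, e u * e v = c u v • e (u + v)

theorem Rel.map {c : V → V → ℂ} {A A' : Type*} [Ring A] [Algebra ℂ A] [Ring A'] [Algebra ℂ A']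
    {e : V → A} (h : Rel c e) (φ : A ≃ₐ[ℂ] A') : Rel c fun v => φ (e v) :=
  ⟨by simp [h.1], fun u v => by simp only [← map_mul, h.2, map_smul]⟩

theorem rep_of {M : Type*} [AddCommGroup M] [Module ℂ M] [FiniteDimensional ℂ M]
    {e : V → End ℂ M} (h : Rel c e) :
    ∃ e' : V → End ℂ (Fin (finrank ℂ M) → ℂ), Rel c e' :=
  ⟨_, h.map ((Module.finBasis ℂ M).equivFun.conjAlgEquiv ℂ)⟩

theorem ex_irr [Finite V] (hl : ∀ u v w, c (u + v) w = c u w * c v w)
    (hr : ∀ u v w, c u (v + w) = c u v * c u w) (h0 : ∀ w, c 0 w = 1) :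
    ∃ d, 0 < d ∧ ∃ e : V → End ℂ (Fin d → ℂ), Rel c e ∧
      ∀ T : End ℂ (Fin d → ℂ), (∀ v, T * e v = e v * T) → ∃ a : ℂ, T = a • 1 := by
  classical
  have ex : ∃ d, 0 < d ∧ ∃ e : V → End ℂ (Fin d → ℂ), Rel c e := by
    let e : V → End ℂ (V → ℂ) := fun v =>
      { toFun := fun f x => c v (x - v) * f (x - v)
        map_add' := fun f g => by ext x; simp [mul_add]
        map_smul' := fun a f => by ext x; simp [mul_left_comm] }
    refine ⟨_, finrank_pos (R := ℂ) (M := V → ℂ), rep_of c (e := e) ⟨?_, fun u v => ?_⟩⟩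
    · ext f x; simp [e, h0]
    · refine LinearMap.ext fun f => funext fun x => ?_
      change c u (x - u) * (c v (x - u - v) * f (x - u - v)) =
        c u v * (c (u + v) (x - (u + v)) * f (x - (u + v)))
      rw [hl, ← sub_sub, show c u (x - u) = c u v * c u (x - u - v) by rw [← hr, add_sub_cancel]]
      ring
  obtain ⟨hd, e, he⟩ := Nat.find_spec ex
  refine ⟨_, hd, e, he, fun T hT => ?_⟩
  have : Nonempty (Fin (Nat.find ex)) := ⟨⟨0, hd⟩⟩
  obtain ⟨a, ha⟩ := End.exists_eigenvalue T
  have inv : ∀ v, ∀ x ∈ T.eigenspace a, e v x ∈ T.eigenspace a := fun v x hx => by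
    rw [End.mem_eigenspace_iff] at hx ⊢
    rw [← End.mul_apply, hT, End.mul_apply, hx, map_smul]
  have h1 : Rel c fun v => ((e v).restrict (inv v) : End ℂ (T.eigenspace a)) :=
    ⟨LinearMap.ext fun x => Subtype.ext (by simp [he.1]), fun u v =>
      LinearMap.ext fun x => Subtype.ext (by
        simpa using LinearMap.congr_fun (he.2 u v) x)⟩
  have h2 := Nat.find_min' ex ⟨finrank_pos_iff.2 (Submodule.nontrivial_iff_ne_bot.2 ha), rep_of c h1⟩
  have h3 : T.eigenspace a = ⊤ := Submodule.eq_top_of_finrank_eq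
    (le_antisymm (Submodule.finrank_le _) (by rwa [finrank_fin_fun]))
  refine ⟨a, LinearMap.ext fun x => ?_⟩
  exact End.mem_eigenspace_iff.1 (h3 ▸ Submodule.mem_top : x ∈ T.eigenspace a)

variable {c} {d : ℕ} {e : V → Matrix (Fin d) (Fin d) ℂ} (he : Rel c e)
  (hn : ∀ u v, c u v ≠ 0) (hs : ∀ w, c w (-w) = c (-w) w)

include he hn in
theorem mul_i (w : V) : e w * ((c w (-w))⁻¹ • e (-w)) = 1 := by
  rw [mul_smul_comm, he.2, smul_smul, inv_mul_cancel₀ (hn _ _), one_smul, add_neg_cancel, he.1]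

include he hn hs in
theorem i_mul (w : V) : ((c w (-w))⁻¹ • e (-w)) * e w = 1 := by
  rw [smul_mul_assoc, he.2, smul_smul, hs, inv_mul_cancel₀ (hn _ _), one_smul, neg_add_cancel, he.1]

include he hn hs in
theorem tr_zero {v w : V} (h : c w v ≠ c v w) : (e v).trace = 0 := by
  have h1 : c v w • (e w * e v) = c w v • (e v * e w) := by
    rw [he.2, he.2, smul_comm, add_comm]
  have h2 := congrArg (fun X => (X * ((c w (-w))⁻¹ • e (-w))).trace) h1
  simp only [smul_mul_assoc, Matrix.trace_smul] at h2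
  rw [Matrix.trace_mul_cycle, i_mul he hn hs, one_mul, mul_assoc, mul_i he hn, mul_one] at h2
  exact (mul_eq_zero.1 (by linear_combination -h2)).resolve_left (sub_ne_zero.2 h)

include he hn hs in
theorem dim_sq [Fintype V] (hd : 0 < d) (ht : ∀ v, v ≠ 0 → (e v).trace = 0)
    (hT : ∀ T : Matrix (Fin d) (Fin d) ℂ, (∀ v, T * e v = e v * T) → ∃ a : ℂ, T = a • 1) :
    d * d = Fintype.card V := by
  classical
  obtain ⟨i, mi, im⟩ : ∃ i : V → Matrix (Fin d) (Fin d) ℂ, (∀ w, e w * i w = 1) ∧
      ∀ w, i w * e w = 1 := ⟨_, mul_i he hn, i_mul he hn hs⟩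
  have hd' : (d : ℂ) ≠ 0 := Nat.cast_ne_zero.2 hd.ne'
  have av : ∀ T : Matrix (Fin d) (Fin d) ℂ,
      ∑ v, e v * T * i v = ((Fintype.card V : ℂ) * T.trace / d) • 1 := fun T => by
    obtain ⟨a, ha⟩ := hT (∑ v, e v * T * i v) fun w => by
      rw [Finset.sum_mul, Finset.mul_sum, ← Equiv.sum_comp (Equiv.addLeft w)]
      refine Finset.sum_congr rfl fun v _ => ?_
      have h1 : i (w + v) * e w = c w v • i v := by
        calc _ = i (w + v) * (e w * e v) * i v := by
              rw [mul_assoc, mul_assoc, mi, mul_one]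
          _ = _ := by rw [he.2, mul_smul_comm, im, smul_mul_assoc, one_mul]
      rw [Equiv.coe_addLeft, mul_assoc, h1, ← mul_assoc, ← mul_assoc, he.2, smul_mul_assoc,
        smul_mul_assoc, mul_smul_comm]
    have h1 := congrArg Matrix.trace ha
    rw [Matrix.trace_sum, Finset.sum_congr rfl fun v _ => show (e v * T * i v).trace = T.trace by
      rw [Matrix.trace_mul_cycle, im, one_mul]] at h1
    simp only [Finset.sum_const, Finset.card_univ, nsmul_eq_mul, Matrix.trace_smul,
      Matrix.trace_one, Fintype.card_fin, smul_eq_mul] at h1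
    rw [ha, h1, mul_div_cancel_right₀ _ hd']
  have h1 : ∀ j k, ∑ v, e v j j * i v k k = if j = k then (Fintype.card V : ℂ) / d else 0 :=
    fun j k => by
      have h2 := congrFun (congrFun (av (Matrix.single j k 1)) j) k
      rw [Matrix.sum_apply] at h2
      rw [← Finset.sum_congr rfl fun v _ => show
        (e v * Matrix.single j k 1 * i v : Matrix (Fin d) (Fin d) ℂ) j k = e v j j * i v k k by
          simp [Matrix.mul_apply, Matrix.single, ite_and], h2]
      split_ifs with h
      · subst h; simp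
      · simp [Matrix.one_apply_ne h]
  have h2 : ∑ v, (e v).trace * (i v).trace = Fintype.card V := by
    simp only [Matrix.trace, Matrix.diag, Finset.sum_mul_sum]
    rw [Finset.sum_comm]
    simp only [Finset.sum_comm (s := (Finset.univ : Finset V)), h1]
    simp [mul_div_cancel₀ _ hd']
  rw [Finset.sum_eq_single 0 (fun v _ hv => by rw [ht v hv, zero_mul]) (by simp)] at h2
  have h3 : i 0 = 1 := by simpa [he.1] using mi 0
  rw [h3, he.1, Matrix.trace_one, Fintype.card_fin] at h2
  exact_mod_cast h2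

end Abstract

theorem tw : TwStmt.{u} := by
  intro E V _ _ _ _ _ σ B q h ψ ⟨a, ha, ha'⟩
  classical
  have := Fintype.ofFinite V
  obtain ⟨d, hd, e, he, hT⟩ := ex_irr (fun u v => ψ (B u v))
    (fun u v w => by rw [add_left, AddChar.map_add_eq_mul])
    (fun u v w => by rw [map_add, AddChar.map_add_eq_mul]) fun w => by simp
  have hn : ∀ u v : V, ψ (B u v) ≠ 0 := fun u v => (ψ.val_isUnit _).ne_zero
  have hs : ∀ w : V, ψ (B w (-w)) = ψ (B (-w) w) := fun w => by rw [map_neg, neg_left]
  have hi := isInvol_of_pow h.card h.pow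
  have he' := he.map LinearMap.toMatrixAlgEquiv'
  have ht : ∀ v, v ≠ 0 → (LinearMap.toMatrixAlgEquiv' (e v)).trace = 0 := fun v hv => by
    obtain ⟨y, hy⟩ := h.herm.exists_eq_one hv
    obtain ⟨δ, hδ⟩ := hi.exists_trace_eq (map_one σ)
    refine tr_zero he' hn hs (w := (σ δ * σ a) • y) fun H => ha' ?_
    have h1 : B ((σ δ * σ a) • y) v = a + B v ((σ δ * σ a) • y) := by
      rw [smul_left, smul_right, hy, h.herm.flip_one hy, map_mul, hi.invol, hi.invol]
      linear_combination a * hδ - σ δ * ha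
    simp only [h1, AddChar.map_add_eq_mul] at H
    exact (mul_left_eq_self₀.1 H).resolve_right (hn _ _)
  have hq := dim_sq he' hn hs hd ht fun T H => by
    obtain ⟨s, hs⟩ := hT (LinearMap.toMatrixAlgEquiv'.symm T) fun v =>
      LinearMap.toMatrixAlgEquiv'.injective
        (by simpa only [map_mul, AlgEquiv.apply_symm_apply] using H v)
    refine ⟨s, ?_⟩
    simpa only [AlgEquiv.apply_symm_apply, map_smul, map_one] using
      congrArg (LinearMap.toMatrixAlgEquiv') hs
  rw [Module.card_eq_pow_finrank (K := E), h.card, ← pow_mul, mul_comm 2, pow_mul, pow_two] at hq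
  obtain rfl : d = q ^ finrank E V := Nat.mul_self_inj.1 hq
  refine ⟨e, he.1, he.2, fun v hv => ?_, hT⟩
  rw [LinearMap.trace_eq_matrix_trace ℂ (Pi.basisFun ℂ _), LinearMap.toMatrix_eq_toMatrix']
  exact ht v hv

end Cfsg.Agent.H15.UwTw
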